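import Cfsg.Agent.H664.Eight.Base
import Cfsg.Agent.H113.PSL.Main
import Cfsg.Agent.H167.HasSt
import Cfsg.Agent.Nodes.RGDClass
import Cfsg.Agent.H363.PslThree

/-!
# S4899, row `PSL₃(q)`, `q ≥ 5`: at least eight character degrees (helper117)

`1`, `q³`, `q² + q`, `(q - 1)²(q + 1)/t`, `(q - 1)(q² + q + 1)/t`, `(q² + q + 1)/t`, `q(q² + q + 1)/t`,
`(q + 1)(q² + q + 1)/t`, each `t` a divisor of `gcd(3, q - 1)`.
-/

set_option autoImplicit false
set_option linter.unusedSectionVars false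

open Cfsg Matrix

namespace Cfsg.Agent.H117.Eight.L3

open Cfsg.Agent.Characters Cfsg.Agent.H113.PSL Three Hyper Degrees Cfsg.Agent.H113.BorelInd
open Cfsg.Agent.H664.Eight

universe u v

section

variable {F : Type u} [Field F] [Fintype F]

/-- **a character of degree `(q² + q + 1) / t`** -/
theorem exists_lin (hq : Fintype.card F ≠ 2) (hq' : Fintype.card F ≠ 4) :
    ∃ (φ : IrrCharacter (ProjectiveSpecialLinearGroup (Fin 3) F)) (t : ℕ),
      t ∣ Nat.gcd 3 (Fintype.card F - 1) ∧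
        charDegree (φ : ProjectiveSpecialLinearGroup (Fin 3) F → ℂ) * t * (Fintype.card F - 1) =
        (Fintype.card F ^ 3 - 1) * 1 := by
  classical
  have hq1 := Fintype.one_lt_card (α := F)
  obtain ⟨χ, hχ⟩ := MulChar.exists_mulChar_orderOf F (dvd_refl (Fintype.card F - 1))
    (Complex.isPrimitiveRoot_exp (Fintype.card F - 1) (by omega))
  have hne : χ ≠ (χ ^ 2)⁻¹ := by
    intro h
    have h2 : χ ^ 3 = 1 := by
      rw [pow_succ]
      nth_rewrite 2 [h]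
      exact mul_inv_cancel (χ ^ 2)
    have h3 := orderOf_dvd_of_pow_eq_one h2
    rw [hχ, Nat.dvd_prime Nat.prime_three] at h3
    omega
  have h1 : linDet χ.toUnitHom 2 1 = 1 := by simp [linDet]
  refine exists_three (isIrr_linDet (F := F) (n := 2) χ.toUnitHom) (d := 1) (by rw [h1]; simp)
    (J := fun c => χ c) (fun c => ?_) (χ ^ 2)⁻¹ ?_ ?_
  · rw [Finset.sum_congr rfl fun y _ => linDet_mir χ c y, Finset.sum_const, Finset.card_univ, nsmul_eq_mul]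
  · rw [sum_units_mul_conj, if_neg hne]
  · intro c
    have h0 : linDet χ.toUnitHom 2 (GeneralLinearGroup.scalar (Fin 2) c) = χ c * χ c := by
      unfold linDet
      rw [MulChar.coe_toUnitHom, GeneralLinearGroup.val_det_apply, GeneralLinearGroup.coe_scalar, Matrix.det_fin_two]
      simp
    have h2 : (χ c * χ c) * (χ ^ 2)⁻¹ c = 1 := by
      rw [← pow_two, ← MulChar.pow_apply_coe, ← MulChar.mul_apply, mul_inv_cancel, MulChar.one_apply_coe]
    rw [h0, h1, h2]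

/-- the Steinberg degree -/
theorem steinberg : Fintype.card F ^ 3 ∈ charDegrees (ProjectiveSpecialLinearGroup (Fin 3) F) := by
  obtain ⟨p, hp⟩ := CharP.exists F
  have hpp : Fact p.Prime := ⟨CharP.char_is_prime F p⟩
  obtain ⟨n, -, hn⟩ := FiniteField.card F p
  have hfin : Finite (ProjectiveSpecialLinearGroup (Fin 3) F) := by
    unfold ProjectiveSpecialLinearGroup
    infer_instance
  obtain ⟨χ, hχ, h1, -⟩ := H167.StChar.HasSt.of_hasRGD (Nodes.RGDClass.hasRGD_PSL (F := F) 2 (p := p))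
  refine ⟨⟨χ, hχ⟩, ?_⟩
  apply H670.PSing.charDegree_eq_of
  change χ 1 = _
  rw [h1]
  have hq1 := Fintype.one_lt_card (α := F)
  have hc := H363.PslThree.card_psl_three (F := F)
  have hpq : p ∣ Fintype.card F := by rw [hn]; exact dvd_pow_self p n.pos.ne'
  have hcop : ∀ k : ℕ, k ≠ 0 → ¬ p ∣ Fintype.card F ^ k - 1 := by
    intro k hk h
    have h2 : 1 ≤ Fintype.card F ^ k := Nat.one_le_pow _ _ (by omega)
    have h3 := (Nat.dvd_sub_iff_right h2 (hpq.trans (dvd_pow_self _ hk))).1 h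
    exact hpp.out.one_lt.ne' (Nat.dvd_one.1 h3)
  have hc1 := hcop 1 one_ne_zero
  have hc2 := hcop 2 two_ne_zero
  have hc3 := hcop 3 three_ne_zero
  rw [pow_one] at hc1
  have hg : ¬ p ∣ Nat.gcd 3 (Fintype.card F - 1) := fun h => hc1 (h.trans (Nat.gcd_dvd_right _ _))
  have hg0 : Nat.gcd 3 (Fintype.card F - 1) ≠ 0 := fun h => hg (by rw [h]; exact dvd_zero _)
  have h20 : Fintype.card F ^ 2 - 1 ≠ 0 := fun h => hc2 (by rw [h]; exact dvd_zero _)
  have h30 : Fintype.card F ^ 3 - 1 ≠ 0 := fun h => hc3 (by rw [h]; exact dvd_zero _)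
  have hq0 : Fintype.card F ^ 3 ≠ 0 := pow_ne_zero _ (by omega)
  have hf := congrArg (fun m : ℕ => m.factorization p) hc
  rw [Nat.factorization_mul hg0 Nat.card_pos.ne', Nat.factorization_mul hq0 (mul_ne_zero h20 h30),
    Nat.factorization_mul h20 h30, Finsupp.add_apply, Finsupp.add_apply, Finsupp.add_apply,
    Nat.factorization_eq_zero_of_not_dvd hg, Nat.factorization_eq_zero_of_not_dvd hc2,
    Nat.factorization_eq_zero_of_not_dvd hc3, add_zero, zero_add, add_zero] at hf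
  rw [hf, hn, ← pow_mul, hpp.out.factorization_pow, Finsupp.single_eq_same]

end

/-- arithmetic: the eight degrees are different (`A = y²`, `B = y³`, `q = y + 5`) -/
theorem nodup_aux {y A B s c a₃ a₄ a₅ a₆ a₇ t₃ t₄ t₅ t₆ t₇ : ℕ}
    (hs : s = A + 10 * y + 25) (hc : c = B + 15 * A + 75 * y + 125)
    (h3 : t₃ = 1 ∨ t₃ = 3) (h4 : t₄ = 1 ∨ t₄ = 3) (h5 : t₅ = 1 ∨ t₅ = 3) (h6 : t₆ = 1 ∨ t₆ = 3)
    (h7 : t₇ = 1 ∨ t₇ = 3)
    (e3 : a₃ * t₃ + s + (y + 5) = c + 1) (e4 : a₄ * t₄ + 1 = c)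
    (e5 : a₅ * t₅ = s + (y + 5) + 1) (e6 : a₆ * t₆ = c + s + (y + 5))
    (e7 : a₇ * t₇ = c + 2 * s + 2 * (y + 5) + 1) :
    [1, c, s + (y + 5), a₃, a₄, a₅, a₆, a₇].Nodup := by
  subst hs hc
  have n01 : ¬ 1 = B + 15 * A + 75 * y + 125 := (by
    clear h3 e3 h4 e4 h5 e5 h6 e6 h7 e7
    omega)
  have n02 : ¬ 1 = A + 10 * y + 25 + (y + 5) := (by
    clear h3 e3 h4 e4 h5 e5 h6 e6 h7 e7
    omega)
  have n03 : ¬ 1 = a₃ := (by
    clear h4 e4 h5 e5 h6 e6 h7 e7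
    rcases h3 with rfl | rfl <;> omega)
  have n04 : ¬ 1 = a₄ := (by
    clear h3 e3 h5 e5 h6 e6 h7 e7
    rcases h4 with rfl | rfl <;> omega)
  have n05 : ¬ 1 = a₅ := (by
    clear h3 e3 h4 e4 h6 e6 h7 e7
    rcases h5 with rfl | rfl <;> omega)
  have n06 : ¬ 1 = a₆ := (by
    clear h3 e3 h4 e4 h5 e5 h7 e7
    rcases h6 with rfl | rfl <;> omega)
  have n07 : ¬ 1 = a₇ := (by
    clear h3 e3 h4 e4 h5 e5 h6 e6
    rcases h7 with rfl | rfl <;> omega)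
  have n12 : ¬ B + 15 * A + 75 * y + 125 = A + 10 * y + 25 + (y + 5) := (by
    clear h3 e3 h4 e4 h5 e5 h6 e6 h7 e7
    omega)
  have n13 : ¬ B + 15 * A + 75 * y + 125 = a₃ := (by
    clear h4 e4 h5 e5 h6 e6 h7 e7
    rcases h3 with rfl | rfl <;> omega)
  have n14 : ¬ B + 15 * A + 75 * y + 125 = a₄ := (by
    clear h3 e3 h5 e5 h6 e6 h7 e7
    rcases h4 with rfl | rfl <;> omega)
  have n15 : ¬ B + 15 * A + 75 * y + 125 = a₅ := (by
    clear h3 e3 h4 e4 h6 e6 h7 e7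
    rcases h5 with rfl | rfl <;> omega)
  have n16 : ¬ B + 15 * A + 75 * y + 125 = a₆ := (by
    clear h3 e3 h4 e4 h5 e5 h7 e7
    rcases h6 with rfl | rfl <;> omega)
  have n17 : ¬ B + 15 * A + 75 * y + 125 = a₇ := (by
    clear h3 e3 h4 e4 h5 e5 h6 e6
    rcases h7 with rfl | rfl <;> omega)
  have n23 : ¬ A + 10 * y + 25 + (y + 5) = a₃ := (by
    clear h4 e4 h5 e5 h6 e6 h7 e7
    rcases h3 with rfl | rfl <;> omega)
  have n24 : ¬ A + 10 * y + 25 + (y + 5) = a₄ := (by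
    clear h3 e3 h5 e5 h6 e6 h7 e7
    rcases h4 with rfl | rfl <;> omega)
  have n25 : ¬ A + 10 * y + 25 + (y + 5) = a₅ := (by
    clear h3 e3 h4 e4 h6 e6 h7 e7
    rcases h5 with rfl | rfl <;> omega)
  have n26 : ¬ A + 10 * y + 25 + (y + 5) = a₆ := (by
    clear h3 e3 h4 e4 h5 e5 h7 e7
    rcases h6 with rfl | rfl <;> omega)
  have n27 : ¬ A + 10 * y + 25 + (y + 5) = a₇ := (by
    clear h3 e3 h4 e4 h5 e5 h6 e6
    rcases h7 with rfl | rfl <;> omega)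
  have n34 : ¬ a₃ = a₄ := (by
    clear h5 e5 h6 e6 h7 e7
    rcases h3 with rfl | rfl <;> rcases h4 with rfl | rfl <;> omega)
  have n35 : ¬ a₃ = a₅ := (by
    clear h4 e4 h6 e6 h7 e7
    rcases h3 with rfl | rfl <;> rcases h5 with rfl | rfl <;> omega)
  have n36 : ¬ a₃ = a₆ := (by
    clear h4 e4 h5 e5 h7 e7
    rcases h3 with rfl | rfl <;> rcases h6 with rfl | rfl <;> omega)
  have n37 : ¬ a₃ = a₇ := (by
    clear h4 e4 h5 e5 h6 e6
    rcases h3 with rfl | rfl <;> rcases h7 with rfl | rfl <;> omega)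
  have n45 : ¬ a₄ = a₅ := (by
    clear h3 e3 h6 e6 h7 e7
    rcases h4 with rfl | rfl <;> rcases h5 with rfl | rfl <;> omega)
  have n46 : ¬ a₄ = a₆ := (by
    clear h3 e3 h5 e5 h7 e7
    rcases h4 with rfl | rfl <;> rcases h6 with rfl | rfl <;> omega)
  have n47 : ¬ a₄ = a₇ := (by
    clear h3 e3 h5 e5 h6 e6
    rcases h4 with rfl | rfl <;> rcases h7 with rfl | rfl <;> omega)
  have n56 : ¬ a₅ = a₆ := (by
    clear h3 e3 h4 e4 h7 e7
    rcases h5 with rfl | rfl <;> rcases h6 with rfl | rfl <;> omega)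
  have n57 : ¬ a₅ = a₇ := (by
    clear h3 e3 h4 e4 h6 e6
    rcases h5 with rfl | rfl <;> rcases h7 with rfl | rfl <;> omega)
  have n67 : ¬ a₆ = a₇ := (by
    clear h3 e3 h4 e4 h5 e5
    rcases h6 with rfl | rfl <;> rcases h7 with rfl | rfl <;> omega)
  simp only [List.nodup_cons, List.mem_cons, List.not_mem_nil, or_false, not_or, List.nodup_nil, not_false_eq_true,
    and_true]
  exact ⟨⟨n01, n02, n03, n04, n05, n06, n07⟩, ⟨n12, n13, n14, n15, n16, n17⟩, ⟨n23, n24, n25, n26, n27⟩,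
    ⟨n34, n35, n36, n37⟩, ⟨n45, n46, n47⟩, ⟨n56, n57⟩, n67⟩

/-- arithmetic: the eight degrees are different -/
theorem nodup {q a₃ a₄ a₅ a₆ a₇ t₃ t₄ t₅ t₆ t₇ : ℕ} (hq : 5 ≤ q)
    (h3 : t₃ = 1 ∨ t₃ = 3) (h4 : t₄ = 1 ∨ t₄ = 3) (h5 : t₅ = 1 ∨ t₅ = 3) (h6 : t₆ = 1 ∨ t₆ = 3)
    (h7 : t₇ = 1 ∨ t₇ = 3)
    (e3 : a₃ * t₃ + q ^ 2 + q = q ^ 3 + 1) (e4 : a₄ * t₄ + 1 = q ^ 3)
    (e5 : a₅ * t₅ = q ^ 2 + q + 1) (e6 : a₆ * t₆ = q ^ 3 + q ^ 2 + q)
    (e7 : a₇ * t₇ = q ^ 3 + 2 * q ^ 2 + 2 * q + 1) :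
    [1, q ^ 3, q ^ 2 + q, a₃, a₄, a₅, a₆, a₇].Nodup := by
  obtain ⟨y, rfl⟩ : ∃ y, q = y + 5 := ⟨q - 5, by omega⟩
  exact nodup_aux (y := y) (A := y ^ 2) (B := y ^ 3) (by ring) (by ring) h3 h4 h5 h6 h7 e3 e4 e5 e6 e7

/-- **S4899, row `PSL₃(q)`, `q ≥ 5`.** -/
theorem eight_l3 {F : Type u} [Field F] [Fintype F] (h : 5 ≤ Fintype.card F) :
    Eight (Matrix.ProjectiveSpecialLinearGroup (Fin 3) F) := by
  classical
  have hfin : Finite (ProjectiveSpecialLinearGroup (Fin 3) F) := by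
    unfold ProjectiveSpecialLinearGroup
    infer_instance
  have hC : ∀ m, 1 ≤ m → HasCusp F m := fun m hm => Main.hasCusp F m hm
  obtain ⟨φ2, h2⟩ := Facts.t3 (F := F) (n := 3) (by norm_num)
  obtain ⟨φ3, t3, ht3, h3⟩ := exists_cusp (F := F) (n := 3) (by norm_num) (hC 3 (by norm_num))
  obtain ⟨φ4, t4, ht4, h4⟩ := exists_hyper (F := F) (m := 2) (by norm_num) (hC 2 (by norm_num))
  obtain ⟨φ5, t5, ht5, h5⟩ := exists_lin (F := F) (by omega) (by omega)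
  obtain ⟨φ6, t6, ht6, h6⟩ := exists_st (F := F) (by omega) (by omega)
  obtain ⟨φ7, t7, ht7, h7⟩ := exists_ps (F := F) (by omega)
  have h1 := steinberg (F := F)
  have hdt : ∀ {t : ℕ}, t ∣ Nat.gcd 3 (Fintype.card F - 1) → t = 1 ∨ t = 3 := fun ht =>
    (Nat.dvd_prime Nat.prime_three).1 (ht.trans (Nat.gcd_dvd_left _ _))
  obtain ⟨x, hx⟩ : ∃ x, Fintype.card F = x + 1 := ⟨Fintype.card F - 1, by omega⟩
  rw [hx] at h h1 h2 h3 h4 h5 h6 h7
  have p2 : (x + 1) ^ 2 - 1 = x * (x + 2) := by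
    have : (x + 1) ^ 2 = x * (x + 2) + 1 := by ring
    omega
  have p3 : (x + 1) ^ 3 - 1 = x * (x ^ 2 + 3 * x + 3) := by
    have : (x + 1) ^ 3 = x * (x ^ 2 + 3 * x + 3) + 1 := by ring
    omega
  have hx0 : 0 < x := by omega
  simp only [Finset.prod_range_succ, Finset.prod_range_zero, Finset.sum_range_succ, Finset.sum_range_zero,
    Nat.add_sub_cancel, zero_add, one_mul, pow_one, pow_zero, Nat.reduceAdd, Nat.reduceSub] at h2 h3 h4 h5 h6 h7
  rw [p2] at h3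
  rw [p3] at h4 h5 h6 h7
  refine eight_of_list [1, (x + 1) ^ 3, (x + 1) ^ 2 + (x + 1), charDegree φ3.1, charDegree φ4.1, charDegree φ5.1,
    charDegree φ6.1, charDegree φ7.1] ?_ (by simp) ?_
  · refine nodup h (hdt ht3) (hdt ht4) (hdt ht5) (hdt ht6) (hdt ht7) ?_ ?_ ?_ ?_ ?_
    · rw [h3]; ring
    · have : charDegree φ4.1 * t4 = x * (x ^ 2 + 3 * x + 3) := by
        apply Nat.eq_of_mul_eq_mul_right hx0
        rw [h4]; try ring
      rw [this]; ring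
    · apply Nat.eq_of_mul_eq_mul_right hx0
      rw [h5]; ring
    · apply Nat.eq_of_mul_eq_mul_right hx0
      rw [h6]; ring
    · apply Nat.eq_of_mul_eq_mul_right hx0
      rw [h7]; ring
  · intro d hd
    simp only [List.mem_cons, List.not_mem_nil, or_false] at hd
    rcases hd with rfl | rfl | rfl | rfl | rfl | rfl | rfl | rfl
    · exact one_mem
    · exact h1
    · refine ⟨φ2, ?_⟩
      rw [h2]; ring
    · exact ⟨φ3, rfl⟩
    · exact ⟨φ4, rfl⟩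
    · exact ⟨φ5, rfl⟩
    · exact ⟨φ6, rfl⟩
    · exact ⟨φ7, rfl⟩

end Cfsg.Agent.H117.Eight.L3
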